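import Cfsg.Agent.Lib.Helper28.PMinimal
import Cfsg.Agent.Lib.Helper1.Coprime2
import Cfsg.Agent.Lib.Helper12.Card

set_option autoImplicit false
set_option linter.unusedSectionVars false

/-! # Isolated `p`-minimal subgroups: the abstract part (in a group with `O_p = 1`) -/

namespace Cfsg.Agent.Lib.Helper28

open Cfsg.Agent.Lib.Helper53 (IsSyl)
open scoped commutatorElement Pointwise

universe u

section
variable {G : Type u} [Group G]

theorem commutator_le_inf_of_le_normalizer {A B : Subgroup G}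
    (h1 : A ≤ Subgroup.normalizer (B : Set G)) (h2 : B ≤ Subgroup.normalizer (A : Set G)) :
    ⁅A, B⁆ ≤ A ⊓ B :=
  le_inf (Subgroup.le_normalizer_iff_commutator_le_left.mp h2)
    (Subgroup.le_normalizer_iff_commutator_le_right.mp h1)

/-- commutators with a join, modulo a subgroup `T` which is only normalized by the factors -/
theorem sup_commutator_le' {T X₁ X₂ R : Subgroup G}
    (h1 : X₁ ≤ Subgroup.normalizer (T : Set G)) (h2 : X₂ ≤ Subgroup.normalizer (T : Set G))
    (c1 : ⁅X₁, R⁆ ≤ T) (c2 : ⁅X₂, R⁆ ≤ T) : ⁅X₁ ⊔ X₂, R⁆ ≤ T := by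
  have key : ∀ x ∈ X₁ ⊔ X₂, x ∈ Subgroup.normalizer (T : Set G) ∧ ∀ r ∈ R, ⁅x, r⁆ ∈ T := by
    intro x hx
    rw [Subgroup.sup_eq_closure] at hx
    induction hx using Subgroup.closure_induction with
    | mem x hx =>
      rcases hx with hx | hx
      · exact ⟨h1 hx, fun r hr => c1 (Subgroup.commutator_mem_commutator hx hr)⟩
      · exact ⟨h2 hx, fun r hr => c2 (Subgroup.commutator_mem_commutator hx hr)⟩
    | one => exact ⟨Subgroup.one_mem _, fun r _ => by simp⟩
    | mul x y _ _ hx hy =>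
      refine ⟨Subgroup.mul_mem _ hx.1 hy.1, fun r hr => ?_⟩
      have e : ⁅x * y, r⁆ = x * ⁅y, r⁆ * x⁻¹ * ⁅x, r⁆ := by
        simp only [commutatorElement_def]; group
      rw [e]
      exact T.mul_mem ((Subgroup.mem_normalizer_iff.mp hx.1 _).mp (hy.2 r hr)) (hx.2 r hr)
    | inv x _ hx =>
      refine ⟨Subgroup.inv_mem _ hx.1, fun r hr => ?_⟩
      have e : ⁅x⁻¹, r⁆ = x⁻¹ * (⁅x, r⁆)⁻¹ * (x⁻¹)⁻¹ := by
        simp only [commutatorElement_def]; group
      rw [e]
      exact (Subgroup.mem_normalizer_iff.mp (Subgroup.inv_mem _ hx.1) _).mp (T.inv_mem (hx.2 r hr))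
  rw [Subgroup.commutator_le]
  exact fun x hx r hr => (key x hx).2 r hr

theorem eq_bot_of_perfect_of_isSolvable {Y : Subgroup G} (h : ⁅Y, Y⁆ = Y)
    (hs : Group.IsSolvable ↥Y) : Y = ⊥ := by
  by_contra hne
  have h1 : Nontrivial ↥Y := (Subgroup.nontrivial_iff_ne_bot Y).mpr hne
  have h2 : Group.IsPerfect ↥Y := Subgroup.isPerfect_iff.mpr h
  exact Group.IsPerfect.not_isSolvable ↥Y hs

end

section
variable {G : Type u} [Group G] [Finite G] {p : ℕ} [Fact p.Prime]

/-- the abstract situation: the image of an isolated `p`-minimal subgroup modulo `O_p(G)` -/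
structure HatData (p : ℕ) (S R U Y L : Subgroup G) : Prop where
  hS : IsPGroup p ↥S
  hRS : R ≤ S
  hSL : S ≤ L
  hLR : L ≤ Subgroup.normalizer (R : Set G)
  hYn : Y.Normal
  hUY : U ≤ Y
  hYmin : ∀ N : Subgroup G, N.Normal → U ≤ N → Y ≤ N
  hYL : Y ⊔ L = ⊤
  dich : ∀ H : Subgroup G, S ≤ Subgroup.normalizer (H : Set G) → U ≤ H ∨ H ≤ L
  hOp : Cfsg.pCore p G = ⊥
  hne : ⁅R, U⁆ ≠ ⊥
  hSU : S ≤ Subgroup.normalizer (U : Set G)
  hgen : Y ≤ (L ⊓ Y) ⊔ U

namespace HatData

variable {S R U Y L : Subgroup G}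

omit [Finite G] [Fact p.Prime] in
theorem hR (h : HatData p S R U Y L) : IsPGroup p ↥R := h.hS.to_le h.hRS

omit [Finite G] [Fact p.Prime] in
theorem ne_RY (h : HatData p S R U Y L) : ⁅R, Y⁆ ≠ ⊥ := fun he =>
  h.hne (le_bot_iff.mp (he ▸ Subgroup.commutator_mono le_rfl h.hUY))

omit [Finite G] [Fact p.Prime] in
theorem Y_ne_bot (h : HatData p S R U Y L) : Y ≠ ⊥ := fun he =>
  h.ne_RY (by rw [he]; exact Subgroup.commutator_bot_right R)

theorem cC (h : HatData p S R U Y L) {H : Subgroup G} (hH : H.IsSubnormal)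
    (hSH : S ≤ Subgroup.normalizer (H : Set G)) (hHL : H ≤ L) : ⁅R, H⁆ = ⊥ := by
  have h1 : ⁅R, H⁆ ≤ R ⊓ H :=
    commutator_le_inf_of_le_normalizer (h.hRS.trans hSH) (hHL.trans h.hLR)
  have h2 : H ≤ Subgroup.normalizer ((R ⊓ H : Subgroup G) : Set G) :=
    Cfsg.Agent.Lib.Helper53.le_normalizer_inf (hHL.trans h.hLR) Subgroup.le_normalizer
  have h3 : (R ⊓ H).IsSubnormal :=
    Subgroup.IsSubnormal.step _ H inf_le_right hH
      ((Subgroup.normal_subgroupOf_iff_le_normalizer inf_le_right).2 h2)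
  have h4 := subnormal_le_pCore h3 (h.hR.to_le inf_le_left)
  rw [h.hOp] at h4
  exact le_bot_iff.mp (h1.trans h4)

theorem cD (h : HatData p S R U Y L) {N : Subgroup G} (hN : N.Normal) : Y ≤ N ∨ ⁅R, N⁆ = ⊥ := by
  rcases h.dich N Subgroup.le_normalizer_of_normal with h1 | h1
  · exact Or.inl (h.hYmin N hN h1)
  · exact Or.inr (h.cC hN.isSubnormal Subgroup.le_normalizer_of_normal h1)

theorem cE (h : HatData p S R U Y L) {N : Subgroup G} (hN : N.Normal) (hRN : R ≤ N) : Y ≤ N := by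
  rcases h.cD hN with h1 | h1
  · exact h1
  · exfalso
    -- `R` is abelian normal in `N`..., in fact `R ≤ O_p(G) = 1`
    rcases h.dich N Subgroup.le_normalizer_of_normal with h2 | h2
    · exact h.hne (le_bot_iff.mp (h1 ▸ Subgroup.commutator_mono le_rfl h2))
    · have h3 : R.IsSubnormal :=
        Subgroup.IsSubnormal.step _ N hRN hN.isSubnormal
          ((Subgroup.normal_subgroupOf_iff_le_normalizer hRN).2 (h2.trans h.hLR))
      have h4 := subnormal_le_pCore h3 h.hR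
      rw [h.hOp, le_bot_iff] at h4
      exact h.hne (by rw [h4]; exact Subgroup.commutator_bot_left U)

theorem cK (h : HatData p S R U Y L) {N : Subgroup G} (hN : N.Normal) (hYN : ¬ Y ≤ N) :
    ⁅Y, N⁆ = ⊥ := by
  have h1 := (h.cD hN).resolve_left hYN
  have h2 : R ≤ Subgroup.centralizer (N : Set G) :=
    Subgroup.commutator_eq_bot_iff_le_centralizer.mp h1
  exact Subgroup.commutator_eq_bot_iff_le_centralizer.mpr (h.cE inferInstance h2)

/-- `Y ≤ F*(G)` -/
theorem le_genFitting (h : HatData p S R U Y L) : Y ≤ Cfsg.generalizedFittingSubgroup G := by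
  rcases h.cD (genFitting_normal (G := G)) with h1 | h1
  · exact h1
  · exact h.cE genFitting_normal
      ((Subgroup.commutator_eq_bot_iff_le_centralizer.mp h1).trans centralizer_genFitting_le)

/-- `[Y, R]` is normal -/
theorem normal_comm (h : HatData p S R U Y L) : (⁅Y, R⁆ : Subgroup G).Normal := by
  have := h.hYn
  rw [← Subgroup.normalizer_eq_top_iff, eq_top_iff, ← h.hYL]
  refine sup_le (le_sup_left.trans (Cfsg.Agent.Lib.Helper1.sup_le_normalizer_commutator Y R)) ?_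
  exact Cfsg.Agent.Lib.Helper53.le_normalizer_commutator Subgroup.le_normalizer_of_normal h.hLR

/-- the non-perfect case -/
theorem nonperfect (h : HatData p S R U Y L) (hnp : ⁅Y, Y⁆ ≠ Y) :
    ⁅⁅Y, Y⁆, Y⁆ = ⊥ ∧ (∃ t : ℕ, t.Prime ∧ t ≠ p ∧ IsPGroup t ↥Y) ∧ U = Y := by
  have hYn := h.hYn
  set D := ⁅Y, Y⁆ with hD
  have hDn : D.Normal := inferInstance
  have hDY : D ≤ Y := Subgroup.commutator_le_self Y
  have hYD : ¬ Y ≤ D := fun hle => hnp (le_antisymm hDY hle)
  have hc : ⁅Y, D⁆ = ⊥ := h.cK hDn hYD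
  have hc' : ⁅D, Y⁆ = ⊥ := by rw [Subgroup.commutator_comm]; exact hc
  have hnil : Group.IsNilpotent ↥Y := (Subgroup.isNilpotent_iff_lowerCentralSeries Y).mpr ⟨2, hc'⟩
  have hle := Cfsg.Agent.Lib.Helper1.normal_nilpotent_le_iSup_pCore hYn hnil
  have hex : ∃ t : Nat.Primes, Y ≤ Cfsg.pCore (t : ℕ) G := by
    by_contra hcon
    push Not at hcon
    apply h.ne_RY
    have h1 : ∀ q : Nat.Primes, ⁅Cfsg.pCore (q : ℕ) G, R⁆ ≤ ⊥ := fun q => by
      have := (h.cD (Cfsg.Agent.Lib.Helper53.pCore_normal (q : ℕ) G)).resolve_left (hcon q)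
      rw [Subgroup.commutator_comm, this]
    have h2 := iSup_commutator_le ⊥ h1
    rw [Subgroup.commutator_comm]
    exact le_bot_iff.mp ((Subgroup.commutator_mono hle le_rfl).trans h2)
  obtain ⟨t, ht⟩ := hex
  have htp : Fact (t : ℕ).Prime := ⟨t.2⟩
  have hYt : IsPGroup (t : ℕ) ↥Y := (Cfsg.Agent.Lib.Helper53.pCore_isPGroup (t : ℕ) G).to_le ht
  have hne : (t : ℕ) ≠ p := by
    intro he
    rw [he, h.hOp, le_bot_iff] at ht
    exact h.Y_ne_bot ht
  have hRYbot : R ⊓ Y = ⊥ := (IsPGroup.disjoint_of_ne p (t : ℕ) hne.symm R Y h.hR hYt).eq_bot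
  have hcop : (Nat.card ↥R).Coprime (Nat.card ↥Y) := by
    obtain ⟨a, ha⟩ := IsPGroup.iff_card.mp h.hR
    obtain ⟨b, hb⟩ := IsPGroup.iff_card.mp hYt
    rw [ha, hb]
    exact Nat.Coprime.pow a b ((Nat.coprime_primes Fact.out t.2).mpr hne.symm)
  have hW : Y ≤ ⁅Y, R⁆ := by
    rcases h.cD h.normal_comm with h1 | h1
    · exact h1
    · exfalso
      have h2 := Cfsg.Agent.Lib.Helper1.coprime_commutator_commutator R Y
        Subgroup.le_normalizer_of_normal hcop (Or.inr inferInstance)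
      rw [Subgroup.commutator_comm, h1] at h2
      exact h.ne_RY (by rw [Subgroup.commutator_comm]; exact h2.symm)
  set T := U ⊔ D with hT
  have hTY : T ≤ Y := sup_le h.hUY hDY
  have hYT : Y ≤ Subgroup.normalizer (T : Set G) := by
    rw [Subgroup.le_normalizer_iff_commutator_le_right]
    exact (Subgroup.commutator_mono le_rfl hTY).trans le_sup_right
  have c1 : ⁅L ⊓ Y, R⁆ ≤ T := by
    have h1 : ⁅L ⊓ Y, R⁆ ≤ R :=
      Subgroup.le_normalizer_iff_commutator_le_right.mp (inf_le_left.trans h.hLR)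
    have h2 : ⁅L ⊓ Y, R⁆ ≤ Y :=
      (Subgroup.commutator_mono inf_le_right le_rfl).trans (Subgroup.commutator_le_left Y R)
    have h3 := le_inf h1 h2
    rw [hRYbot] at h3
    exact h3.trans bot_le
  have c2 : ⁅U, R⁆ ≤ T :=
    (Subgroup.le_normalizer_iff_commutator_le_left.mp (h.hRS.trans h.hSU)).trans le_sup_left
  have h5 : ⁅(L ⊓ Y) ⊔ U, R⁆ ≤ T :=
    sup_commutator_le' (inf_le_right.trans hYT) (h.hUY.trans hYT) c1 c2
  have hYleT : Y ≤ T := hW.trans ((Subgroup.commutator_mono h.hgen le_rfl).trans h5)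
  have hDU : D ≤ Subgroup.normalizer (U : Set G) := by
    rw [Subgroup.le_normalizer_iff_commutator_le_right]
    exact ((Subgroup.commutator_mono le_rfl h.hUY).trans hc'.le).trans bot_le
  have e1 : ⁅T, U⁆ ≤ U :=
    sup_commutator_le' Subgroup.le_normalizer hDU (Subgroup.commutator_le_self U)
      (((Subgroup.commutator_mono le_rfl h.hUY).trans hc'.le).trans bot_le)
  have e2 : ⁅T, T⁆ ≤ U := by
    refine sup_commutator_le' Subgroup.le_normalizer hDU ?_ ?_
    · rw [Subgroup.commutator_comm]; exact e1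
    · exact ((Subgroup.commutator_mono le_rfl hTY).trans hc'.le).trans bot_le
  have hDleU : D ≤ U := (Subgroup.commutator_mono hYleT hYleT).trans e2
  exact ⟨hc', ⟨t, t.2, hne, hYt⟩, le_antisymm h.hUY (hYleT.trans (sup_le le_rfl hDleU))⟩

/-- the perfect case: `Y` is generated by components -/
theorem perfect_eq_sSup (h : HatData p S R U Y L) (hp : ⁅Y, Y⁆ = Y) :
    Y = sSup {K : Subgroup G | Cfsg.IsComponent K ∧ K ≤ Y} := by
  have hYn := h.hYn
  set E₁ := sSup {K : Subgroup G | Cfsg.IsComponent K ∧ K ≤ Y} with hE₁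
  have hE₁Y : E₁ ≤ Y := sSup_le fun K hK => hK.2
  have hE₁n : E₁.Normal := by
    apply normal_of_map_conj_le
    intro g
    rw [hE₁, (Subgroup.gc_map_comap (MulAut.conj g).toMonoidHom).l_sSup]
    refine iSup₂_le fun K hK => le_sSup ⟨isComponent_conj hK.1 g, ?_⟩
    rintro _ ⟨y, hy, rfl⟩
    exact hYn.conj_mem y (hK.2 hy) g
  refine le_antisymm ?_ hE₁Y
  by_contra hcon
  have h1 : ⁅Y, E₁⁆ = ⊥ := h.cK hE₁n hcon
  have h2 : ⁅Cfsg.layer G, Y⁆ = ⊥ := by
    apply layer_commutator_eq_bot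
    intro K hK
    rcases IsComponent.le_or_commutator_eq_bot_of_normal hK hYn with h3 | h3
    · rw [Subgroup.commutator_comm]
      exact le_bot_iff.mp (h1 ▸ Subgroup.commutator_mono le_rfl (le_sSup ⟨hK, h3⟩))
    · exact h3
  have hFn : (Cfsg.fittingSubgroup G).Normal := fitting_normal
  have h3 : ⁅Y, Cfsg.layer G ⊔ Cfsg.fittingSubgroup G⁆ ≤ Cfsg.fittingSubgroup G := by
    apply commutator_sup_le
    · rw [Subgroup.commutator_comm, h2]; exact bot_le
    · exact Subgroup.commutator_le_right _ _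
  have h4 : Y ≤ Cfsg.fittingSubgroup G := by
    calc Y = ⁅Y, Y⁆ := hp.symm
      _ ≤ ⁅Y, Cfsg.layer G ⊔ Cfsg.fittingSubgroup G⁆ := Subgroup.commutator_mono le_rfl h.le_genFitting
      _ ≤ _ := h3
  have h5 : Group.IsNilpotent ↥Y :=
    SubClosed.of_le radClass_nilpotent subClosed_nilpotent h4 fitting_isNilpotent
  exact h.Y_ne_bot (eq_bot_of_perfect_of_isSolvable hp inferInstance)

theorem le_layer_of_perfect (h : HatData p S R U Y L) (hp : ⁅Y, Y⁆ = Y) : Y ≤ Cfsg.layer G := by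
  rw [h.perfect_eq_sSup hp]
  exact sSup_le fun K hK => le_layer hK.1

theorem U_le_orbit (h : HatData p S R U Y L) (hp : ⁅Y, Y⁆ = Y) {K : Subgroup G}
    (hK : Cfsg.IsComponent K) (hKY : K ≤ Y) :
    U ≤ ⨆ s : ↥S, K.map (MulAut.conj (s : G)).toMonoidHom := by
  have hYl := h.le_layer_of_perfect hp
  set YK := ⨆ s : ↥S, K.map (MulAut.conj (s : G)).toMonoidHom with hYK
  have hS : S ≤ Subgroup.normalizer ((YK : Subgroup G) : Set G) := le_normalizer_iSup_conj S K
  have hYKl : YK ≤ Cfsg.layer G := iSup_le fun s => le_layer (isComponent_conj hK _)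
  have hln : Cfsg.layer G ≤ Subgroup.normalizer ((YK : Subgroup G) : Set G) := fun x hx =>
    mem_normalizer_iSup fun s => layer_le_normalizer_component (isComponent_conj hK _) hx
  have hsub : YK.IsSubnormal :=
    Subgroup.IsSubnormal.step _ (Cfsg.layer G) hYKl (layer_normal (G := G)).isSubnormal
      ((Subgroup.normal_subgroupOf_iff_le_normalizer hYKl).2 hln)
  rcases h.dich YK hS with h1 | h1
  · exact h1
  exfalso
  have hRK : ⁅K, R⁆ = ⊥ := by
    have h2 := h.cC hsub hS h1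
    rw [Subgroup.commutator_comm]
    exact le_bot_iff.mp (h2 ▸ Subgroup.commutator_mono le_rfl (le_iSup_conj S K))
  set N₂ := ⨆ l : ↥L, K.map (MulAut.conj (l : G)).toMonoidHom with hN₂
  have hN₂n : N₂.Normal := by
    rw [← Subgroup.normalizer_eq_top_iff, eq_top_iff, ← h.hYL]
    refine sup_le ?_ (le_normalizer_iSup_conj L K)
    exact hYl.trans fun x hx =>
      mem_normalizer_iSup fun s => layer_le_normalizer_component (isComponent_conj hK _) hx
  have hRN₂ : ⁅N₂, R⁆ ≤ ⊥ := by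
    apply iSup_commutator_le
    intro l
    have h2 : R.map (MulAut.conj (l : G)).toMonoidHom = R :=
      Cfsg.Agent.Lib.Helper53.cj_eq_self_iff.2 (h.hLR l.2)
    calc ⁅K.map (MulAut.conj (l : G)).toMonoidHom, R⁆
        = ⁅K.map (MulAut.conj (l : G)).toMonoidHom, R.map (MulAut.conj (l : G)).toMonoidHom⁆ := by
          rw [h2]
      _ = (⁅K, R⁆).map (MulAut.conj (l : G)).toMonoidHom := (Subgroup.map_commutator _ _ _).symm
      _ ≤ ⊥ := by rw [hRK, Subgroup.map_bot]
  have h3 : R ≤ Subgroup.centralizer (N₂ : Set G) := by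
    rw [← Subgroup.commutator_eq_bot_iff_le_centralizer, Subgroup.commutator_comm]
    exact le_bot_iff.mp hRN₂
  have h4 := h.cE inferInstance h3
  have h5 : ⁅K, K⁆ = ⊥ := by
    have h6 := Subgroup.commutator_eq_bot_iff_le_centralizer.mpr h4
    exact le_bot_iff.mp (h6 ▸ Subgroup.commutator_mono hKY (le_iSup_conj L K))
  exact IsComponent.not_commutator_self hK h5

theorem transitive (h : HatData p S R U Y L) (hp : ⁅Y, Y⁆ = Y) {K₁ K₂ : Subgroup G}
    (h1 : Cfsg.IsComponent K₁) (h1Y : K₁ ≤ Y) (h2 : Cfsg.IsComponent K₂) (h2Y : K₂ ≤ Y) :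
    ∃ s ∈ S, K₂ = K₁.map (MulAut.conj s).toMonoidHom := by
  have hYn := h.hYn
  by_contra hcon
  push Not at hcon
  set Y₁ := ⨆ s : ↥S, K₁.map (MulAut.conj (s : G)).toMonoidHom with hY₁
  set Y₂ := ⨆ s : ↥S, K₂.map (MulAut.conj (s : G)).toMonoidHom with hY₂
  have hU1 : U ≤ Y₁ := h.U_le_orbit hp h1 h1Y
  have hU2 : U ≤ Y₂ := h.U_le_orbit hp h2 h2Y
  -- a component which is not an `S`-conjugate of `K₁` commutes with `Y₁`
  have key : ∀ K : Subgroup G, Cfsg.IsComponent K →
      (∀ s ∈ S, K ≠ K₁.map (MulAut.conj s).toMonoidHom) → ⁅Y₁, K⁆ ≤ ⊥ := by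
    intro K hK hne
    apply iSup_commutator_le
    intro s
    exact (IsComponent.commutator_eq_bot_of_ne (isComponent_conj h1 _) hK (hne s s.2).symm).le
  have hcomm : ⁅Y₂, Y₁⁆ ≤ ⊥ := by
    apply iSup_commutator_le
    intro s'
    rw [Subgroup.commutator_comm]
    apply key _ (isComponent_conj h2 _)
    intro s hs he
    apply hcon ((s' : G)⁻¹ * s) (S.mul_mem (S.inv_mem s'.2) hs)
    rw [← Cfsg.Agent.Lib.Helper53.cj_cj, ← he, Cfsg.Agent.Lib.Helper53.cj_cj, inv_mul_cancel,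
      Cfsg.Agent.Lib.Helper53.cj_one]
  have hall : ∀ K ∈ {K : Subgroup G | Cfsg.IsComponent K ∧ K ≤ Y}, ⁅K, U⁆ ≤ ⊥ := by
    intro K hK
    by_cases hc : ∃ s ∈ S, K = K₁.map (MulAut.conj s).toMonoidHom
    · obtain ⟨s, hs, rfl⟩ := hc
      rw [Subgroup.commutator_comm]
      refine (Subgroup.commutator_mono hU2 ?_).trans hcomm
      exact le_iSup (fun s : ↥S => K₁.map (MulAut.conj (s : G)).toMonoidHom) ⟨s, hs⟩
    · push Not at hc
      rw [Subgroup.commutator_comm]
      exact (Subgroup.commutator_mono hU1 le_rfl).trans (key K hK.1 hc)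
  have h3 : ⁅Y, U⁆ ≤ ⊥ := by
    have h4 := sSup_commutator_le ⊥ hall
    rwa [← h.perfect_eq_sSup hp] at h4
  have h4 : U ≤ Subgroup.centralizer (Y : Set G) := by
    rw [← Subgroup.commutator_eq_bot_iff_le_centralizer, Subgroup.commutator_comm]
    exact le_bot_iff.mp h3
  have h5 := h.hYmin _ inferInstance h4
  have h6 := Subgroup.commutator_eq_bot_iff_le_centralizer.mpr h5
  rw [hp] at h6
  exact h.Y_ne_bot h6

theorem dvd_card (h : HatData p S R U Y L) (hp : ⁅Y, Y⁆ = Y) : p ∣ Nat.card ↥Y := by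
  have hYn := h.hYn
  by_contra hnd
  have hRY : R ⊓ Y = ⊥ :=
    inf_eq_bot_of_isPGroup_of_coprime h.hR ((coprime_iff_not_dvd _).mpr hnd)
  have hLC : ∀ H : Subgroup G, H ≤ Y → H ≤ L → H ≤ Subgroup.centralizer (R : Set G) := by
    intro H hHY hHL
    rw [← Subgroup.commutator_eq_bot_iff_le_centralizer, eq_bot_iff, ← hRY]
    exact le_inf (Subgroup.le_normalizer_iff_commutator_le_right.mp (hHL.trans h.hLR))
      ((Subgroup.commutator_mono hHY le_rfl).trans (Subgroup.commutator_le_left Y R))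
  have hinv : ∀ (q : ℕ) [Fact q.Prime], ∃ Q : Sylow q ↥Y, S ≤
      Subgroup.normalizer (((Q : Subgroup ↥Y).map Y.subtype : Subgroup G) : Set G) :=
    fun q _ => Cfsg.Agent.Lib.Helper75.exists_invariant_sylow S Y h.hS
      Subgroup.le_normalizer_of_normal hnd
  by_cases hA : ∃ (q₀ : ℕ) (_ : Fact q₀.Prime) (Q₀ : Sylow q₀ ↥Y), S ≤
      Subgroup.normalizer (((Q₀ : Subgroup ↥Y).map Y.subtype : Subgroup G) : Set G) ∧
      U ≤ (Q₀ : Subgroup ↥Y).map Y.subtype
  · obtain ⟨q₀, hq₀, Q₀, hSQ₀, hUQ₀⟩ := hA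
    set C' := (Subgroup.centralizer (R : Set G)).subgroupOf Y with hC'
    have hcop : ((Q₀ : Subgroup ↥Y).index).Coprime C'.index := by
      apply Nat.coprime_of_dvd
      intro q hq hq1 hq2
      have hqf : Fact q.Prime := ⟨hq⟩
      by_cases hqq : q = q₀
      · subst hqq
        exact Q₀.not_dvd_index hq1
      · obtain ⟨Q, hQ⟩ := hinv q
        rcases h.dich _ hQ with h1 | h1
        · have h2 : U ≤ ⊥ := by
            rw [← (IsPGroup.disjoint_of_ne q q₀ hqq _ _ (Q.2.map Y.subtype)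
              (Q₀.2.map Y.subtype)).eq_bot]
            exact le_inf h1 hUQ₀
          apply h.hne
          rw [le_bot_iff.mp h2]
          exact Subgroup.commutator_bot_right R
        · have h2 : (Q : Subgroup ↥Y) ≤ C' :=
            Subgroup.map_le_iff_le_comap.1 (hLC _ (Subgroup.map_subtype_le _) h1)
          exact Q.not_dvd_index (hq2.trans (Subgroup.index_dvd_of_le h2))
    have hmul := Cfsg.Agent.Lib.Helper12.mul_eq_univ_of_coprime_index (Q₀ : Subgroup ↥Y) C' hcop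
    have hW : ⁅Y, R⁆ ≤ (Q₀ : Subgroup ↥Y).map Y.subtype := by
      rw [Subgroup.commutator_le]
      intro y hy r hr
      have h1 : (⟨y, hy⟩ : ↥Y) ∈ ((Q₀ : Subgroup ↥Y) : Set ↥Y) * (C' : Set ↥Y) := by
        rw [hmul]; trivial
      obtain ⟨x, hx, c, hc, hxc⟩ := Set.mem_mul.mp h1
      have hy' : y = (x : G) * (c : G) := by
        have := congrArg Subtype.val hxc
        simpa using this.symm
      have hcr : r * (c : G) = (c : G) * r :=
        Subgroup.mem_centralizer_iff.mp (Subgroup.mem_subgroupOf.mp hc) r hr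
      have e : ⁅y, r⁆ = ⁅(x : G), r⁆ := by
        rw [hy', commutatorElement_def, commutatorElement_def]
        have : (x : G) * (c : G) * r * ((x : G) * (c : G))⁻¹ = (x : G) * r * (x : G)⁻¹ := by
          rw [mul_assoc (x : G) (c : G) r, ← hcr]; group
        rw [this]
      rw [e]
      exact (Subgroup.le_normalizer_iff_commutator_le_left.mp (h.hRS.trans hSQ₀))
        (Subgroup.commutator_mem_commutator ⟨x, hx, rfl⟩ hr)
    have hWq : IsPGroup q₀ ↥(⁅Y, R⁆ : Subgroup G) := (Q₀.2.map Y.subtype).to_le hW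
    have hWs : Group.IsSolvable ↥(⁅Y, R⁆ : Subgroup G) := by
      have := hWq.isNilpotent
      infer_instance
    have h1 := layer_commutator_eq_bot_of_isSolvable h.normal_comm.isSubnormal hWs
    have h2 : ⁅⁅R, Y⁆, Y⁆ = ⊥ := by
      rw [Subgroup.commutator_comm R Y, Subgroup.commutator_comm]
      exact le_bot_iff.mp (h1 ▸ Subgroup.commutator_mono (h.le_layer_of_perfect hp) le_rfl)
    exact h.ne_RY (commutator_eq_bot_of_perfect hp h2)
  · push Not at hA
    have h1 : (Subgroup.centralizer (R : Set G)).subgroupOf Y = ⊤ := by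
      apply Cfsg.Agent.Lib.Helper1.eq_top_of_forall_sylow_le
      intro q hq
      obtain ⟨Q, hQ⟩ := hinv q
      refine ⟨Q, Subgroup.map_le_iff_le_comap.1 (hLC _ (Subgroup.map_subtype_le _) ?_)⟩
      exact (h.dich _ hQ).resolve_left (hA q hq Q hQ)
    have h2 : Y ≤ Subgroup.centralizer (R : Set G) := Subgroup.subgroupOf_eq_top.mp h1
    apply h.ne_RY
    rw [Subgroup.commutator_comm]
    exact Subgroup.commutator_eq_bot_iff_le_centralizer.mpr h2

end HatData

end

end Cfsg.Agent.Lib.Helper28
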