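import Cfsg.Agent.Lib.Helper28.Isolated
import Cfsg.Prelude.Def_BaumannBlocks

set_option autoImplicit false
set_option linter.unusedSectionVars false
set_option linter.unusedVariables false

/-! # Isolated `p`-minimal subgroups: passage to `G / O_p(G)` -/

namespace Cfsg.Agent.Lib.Helper28

open Cfsg.Agent.Lib.Helper53 (IsSyl)
open Cfsg (pCoreOf pResidualOf pCore)
open scoped commutatorElement Pointwise

universe u

section
variable {G : Type u} [Group G] [Finite G] {p : ℕ} [Fact p.Prime]

/-- the subgroup generated by `N_H(S)` and the `p`-minimal subgroups of `H` over `S` -/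
def pGen (p : ℕ) (S H : Subgroup G) : Subgroup G :=
  (Subgroup.normalizer (S : Set G) ⊓ H) ⊔
    ⨆ P' : {P' : Subgroup G // S ≤ P' ∧ P' ≤ H ∧ Cfsg.IsPMinimal p ↥P'}, (P' : Subgroup G)

theorem pGen_le (S H : Subgroup G) : pGen p S H ≤ H :=
  sup_le inf_le_right (iSup_le fun P' => P'.2.2.1)

theorem pGen_mono (S : Subgroup G) {C H : Subgroup G} (h : C ≤ H) : pGen p S C ≤ pGen p S H := by
  refine sup_le_sup (inf_le_inf_left _ h) (iSup_le fun P' => ?_)
  exact le_iSup (fun P' : {P' : Subgroup G // S ≤ P' ∧ P' ≤ H ∧ Cfsg.IsPMinimal p ↥P'} =>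
    (P' : Subgroup G)) ⟨P'.1, P'.2.1, P'.2.2.1.trans h, P'.2.2.2⟩

/-- every subgroup over a Sylow subgroup `S` is generated by `N_H(S)` and the `p`-minimal subgroups
over `S` -/
theorem pGen_eq (S : Sylow p G) :
    ∀ H : Subgroup G, (S : Subgroup G) ≤ H → pGen p (S : Subgroup G) H = H := by
  intro H
  induction H using WellFoundedLT.induction with
  | ind H ih =>
    intro hSH
    have hle : pGen p (S : Subgroup G) H ≤ H := pGen_le _ _
    by_contra hne
    have hsyl : IsSyl p (S : Subgroup G) H := (isSyl_top S).of_le hSH le_top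
    have hmin : Cfsg.IsPMinimal p ↥H := by
      apply isPMinimal_of_isSyl (M₀ := pGen p (S : Subgroup G) H) hsyl
      · intro h
        exact hne (le_antisymm hle (le_sup_of_le_left (le_inf h le_rfl)))
      · intro h
        exact hne (le_antisymm hle h)
      · intro Y hYH hSY hYne
        have := ih Y (lt_of_le_of_ne hYH hYne) hSY
        rw [← this]
        exact pGen_mono _ hYH
    exact hne (le_antisymm hle (le_sup_of_le_right
      (le_iSup (fun P' : {P' : Subgroup G // (S : Subgroup G) ≤ P' ∧ P' ≤ H ∧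
        Cfsg.IsPMinimal p ↥P'} => (P' : Subgroup G)) ⟨H, hSH, le_rfl, hmin⟩)))

/-- `P` is an isolated subgroup over `S`, with respect to `L` -/
structure IsoData (p : ℕ) (S : Sylow p G) (P L : Subgroup G) : Prop where
  hSP : (S : Subgroup G) ≤ P
  hNL : Subgroup.normalizer ((S : Subgroup G) : Set G) ≤ L
  hL : ∀ P' : Subgroup G, (S : Subgroup G) ≤ P' → Cfsg.IsPMinimal p ↥P' → P' ≠ P → P' ≤ L
  hiso : ¬ pCoreOf p L ≤ pCoreOf p P

namespace IsoData

variable {S : Sylow p G} {P L : Subgroup G}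

theorem hSL (h : IsoData p S P L) : (S : Subgroup G) ≤ L := Subgroup.le_normalizer.trans h.hNL

theorem hRS (h : IsoData p S P L) : pCoreOf p L ≤ (S : Subgroup G) :=
  Cfsg.Agent.Lib.Helper53.pCoreOf_le_isSyl ((isSyl_top S).of_le h.hSL le_top)

theorem hLR (h : IsoData p S P L) : L ≤ Subgroup.normalizer ((pCoreOf p L : Subgroup G) : Set G) :=
  Cfsg.Agent.Lib.Helper53.le_normalizer_pCoreOf p L

theorem le_or_le (h : IsoData p S P L) (H : Subgroup G) (hSH : (S : Subgroup G) ≤ H) :
    P ≤ H ∨ H ≤ L := by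
  by_cases hP : P ≤ H
  · exact Or.inl hP
  · right
    rw [← pGen_eq S H hSH]
    refine sup_le (inf_le_left.trans h.hNL) (iSup_le fun P' => ?_)
    refine h.hL P'.1 P'.2.1 P'.2.2.2 ?_
    intro he
    exact hP (he ▸ P'.2.2.1)

theorem hPU (h : IsoData p S P L) : pResidualOf p P ⊔ (S : Subgroup G) = P :=
  Cfsg.Agent.Lib.Helper53.pRes_sup_isSyl ((isSyl_top S).of_le h.hSP le_top)

theorem hUP (h : IsoData p S P L) : pResidualOf p P ≤ P := Cfsg.Agent.Lib.Helper53.pRes_le p P

theorem hPnU (h : IsoData p S P L) :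
    P ≤ Subgroup.normalizer ((pResidualOf p P : Subgroup G) : Set G) :=
  Subgroup.le_normalizer.trans (Cfsg.Agent.Lib.Helper53.normalizer_le_normalizer_pRes p P)

theorem hO (h : IsoData p S P L) : pCore p G ≤ pCoreOf p P := by
  refine le_trans ?_ (Cfsg.Agent.Lib.Helper53.pCore_inf_le p P)
  exact le_inf le_rfl ((Cfsg.Agent.Lib.Helper53.pCore_le_sylow S).trans h.hSP)

theorem not_comm_le (h : IsoData p S P L) : ¬ ⁅pCoreOf p L, pResidualOf p P⁆ ≤ pCoreOf p P := by
  intro hle
  set R := pCoreOf p L with hR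
  set Q := pCoreOf p P with hQ
  set U := pResidualOf p P with hU
  have hPQ : P ≤ Subgroup.normalizer ((Q : Subgroup G) : Set G) :=
    Cfsg.Agent.Lib.Helper53.le_normalizer_pCoreOf p P
  have hRP : R ≤ P := h.hRS.trans h.hSP
  have hAp : IsPGroup p ↥(R ⊔ Q : Subgroup G) :=
    (Cfsg.Agent.Lib.Helper53.pCoreOf_isPGroup p L).to_sup_of_normal_right'
      (Cfsg.Agent.Lib.Helper53.pCoreOf_isPGroup p P) (hRP.trans hPQ)
  have hAP : R ⊔ Q ≤ P := sup_le hRP (Cfsg.Agent.Lib.Helper53.pCoreOf_le p P)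
  have hn : P ≤ Subgroup.normalizer ((R ⊔ Q : Subgroup G) : Set G) := by
    conv_lhs => rw [← h.hPU]
    refine sup_le ?_ ?_
    · rw [Subgroup.le_normalizer_iff_commutator_le_right, Subgroup.commutator_comm]
      refine sup_commutator_le' (le_sup_left.trans Subgroup.le_normalizer)
        (le_sup_right.trans Subgroup.le_normalizer) (hle.trans le_sup_right) ?_
      exact (Subgroup.le_normalizer_iff_commutator_le_left.mp (h.hUP.trans hPQ)).trans le_sup_right
    · exact Cfsg.Agent.Lib.Helper53.le_normalizer_sup (h.hSL.trans h.hLR) (h.hSP.trans hPQ)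
  exact h.hiso (le_sup_left.trans (Cfsg.Agent.Lib.Helper53.le_pCoreOf hAP hn hAp))

theorem sup_eq_top (h : IsoData p S P L) :
    Subgroup.normalClosure ((pResidualOf p P : Subgroup G) : Set G) ⊔ L = ⊤ := by
  rw [eq_top_iff, ← pGen_eq S ⊤ le_top]
  refine sup_le (inf_le_left.trans (h.hNL.trans le_sup_right)) (iSup_le fun P' => ?_)
  by_cases he : P'.1 = P
  · rw [he]
    exact h.hPU.symm.le.trans (sup_le_sup Subgroup.le_normalClosure h.hSL)
  · exact (h.hL P'.1 P'.2.1 P'.2.2.2 he).trans le_sup_right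

theorem hgen (h : IsoData p S P L) :
    Subgroup.normalClosure ((pResidualOf p P : Subgroup G) : Set G) ≤
      (L ⊓ Subgroup.normalClosure ((pResidualOf p P : Subgroup G) : Set G)) ⊔ pResidualOf p P := by
  set U := pResidualOf p P with hU
  set Y := Subgroup.normalClosure ((U : Subgroup G) : Set G) with hY
  set Y₁ := (L ⊓ Y) ⊔ U with hY₁
  have hYn : Y.Normal := Subgroup.normalClosure_normal
  have piece : ∀ Z : Subgroup G, (S : Subgroup G) ≤ Z → Z ≤ Y ⊔ S → Z ≤ L → Z ≤ Y₁ ⊔ S := by
    intro Z hSZ hZX hZL z hz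
    have h1 : z ∈ (S : Subgroup G) ⊔ Y := by rw [sup_comm]; exact hZX hz
    obtain ⟨s, hs, y, hy, rfl⟩ := exists_mul_of_mem_sup Subgroup.le_normalizer_of_normal h1
    have h2 : y ∈ Z := by
      have := Z.mul_mem (Z.inv_mem (hSZ hs)) hz
      simpa using this
    exact Subgroup.mul_mem _ (Subgroup.mem_sup_right hs)
      (Subgroup.mem_sup_left (Subgroup.mem_sup_left ⟨hZL h2, hy⟩))
  have hX : Y ⊔ (S : Subgroup G) ≤ Y₁ ⊔ S := by
    conv_lhs => rw [← pGen_eq S (Y ⊔ S) le_sup_right]
    refine sup_le ?_ (iSup_le fun P' => ?_)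
    · exact piece _ (le_inf Subgroup.le_normalizer le_sup_right) inf_le_right
        (inf_le_left.trans h.hNL)
    · by_cases he : P'.1 = P
      · rw [he, ← h.hPU]
        exact sup_le_sup_right le_sup_right _
      · exact piece _ P'.2.1 P'.2.2.1 (h.hL P'.1 P'.2.1 P'.2.2.2 he)
  have hSY₁ : (S : Subgroup G) ≤ Subgroup.normalizer ((Y₁ : Subgroup G) : Set G) :=
    Cfsg.Agent.Lib.Helper53.le_normalizer_sup
      (Cfsg.Agent.Lib.Helper53.le_normalizer_inf (h.hSL.trans Subgroup.le_normalizer)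
        Subgroup.le_normalizer_of_normal) (h.hSP.trans h.hPnU)
  intro y hy
  have h1 : y ∈ (S : Subgroup G) ⊔ Y₁ := by rw [sup_comm]; exact hX (Subgroup.mem_sup_left hy)
  obtain ⟨s, hs, y₁, hy₁, rfl⟩ := exists_mul_of_mem_sup hSY₁ h1
  have hY₁Y : Y₁ ≤ Y := sup_le inf_le_right Subgroup.le_normalClosure
  have h2 : s ∈ Y := by
    have := Y.mul_mem hy (Y.inv_mem (hY₁Y hy₁))
    simpa using this
  exact Y₁.mul_mem (Subgroup.mem_sup_left ⟨h.hSL hs, h2⟩) hy₁

/-- passage to `G / O_p(G)` -/
theorem hat (h : IsoData p S P L) [hOn : (pCore p G).Normal] :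
    HatData p ((S : Subgroup G).map (QuotientGroup.mk' (pCore p G)))
      ((pCoreOf p L).map (QuotientGroup.mk' (pCore p G)))
      ((pResidualOf p P).map (QuotientGroup.mk' (pCore p G)))
      ((Subgroup.normalClosure ((pResidualOf p P : Subgroup G) : Set G)).map
        (QuotientGroup.mk' (pCore p G)))
      (L.map (QuotientGroup.mk' (pCore p G))) where
  hS := S.2.map _
  hRS := Subgroup.map_mono h.hRS
  hSL := Subgroup.map_mono h.hSL
  hLR := (Subgroup.map_mono h.hLR).trans (Subgroup.le_normalizer_map _)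
  hYn := Subgroup.Normal.map Subgroup.normalClosure_normal _ (QuotientGroup.mk'_surjective _)
  hUY := Subgroup.map_mono Subgroup.le_normalClosure
  hYmin := by
    intro N hN hUN
    rw [Subgroup.map_le_iff_le_comap] at hUN ⊢
    have : (N.comap (QuotientGroup.mk' (pCore p G))).Normal := hN.comap _
    exact Subgroup.normalClosure_le_normal hUN
  hYL := by
    rw [← Subgroup.map_sup, h.sup_eq_top,
      Subgroup.map_top_of_surjective _ (QuotientGroup.mk'_surjective _)]
  dich := by
    intro H hSH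
    have hSn : (S : Subgroup G) ≤ Subgroup.normalizer
        ((H.comap (QuotientGroup.mk' (pCore p G)) : Subgroup G) : Set G) :=
      (Subgroup.map_le_iff_le_comap.mp hSH).trans (Subgroup.le_normalizer_comap _)
    rcases h.le_or_le (H.comap (QuotientGroup.mk' (pCore p G)) ⊔ S) le_sup_right with h1 | h1
    · left
      rw [Subgroup.map_le_iff_le_comap]
      exact Cfsg.Agent.Lib.Helper53.pRes_le_of_le_sup hSn S.2 (by rwa [sup_comm])
    · right
      rw [← Subgroup.map_comap_eq_self_of_surjective (QuotientGroup.mk'_surjective (pCore p G)) H]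
      exact Subgroup.map_mono (le_sup_left.trans h1)
  hOp := by
    rw [Cfsg.Agent.Lib.Helper53.pCore_quotient (pCore p G)
      (Cfsg.Agent.Lib.Helper53.pCore_isPGroup p G), QuotientGroup.map_mk'_self]
  hne := by
    intro he
    rw [← Subgroup.map_commutator, Subgroup.map_eq_bot_iff, QuotientGroup.ker_mk'] at he
    exact h.not_comm_le (he.trans h.hO)
  hSU := (Subgroup.map_mono (h.hSP.trans h.hPnU)).trans (Subgroup.le_normalizer_map _)
  hgen := by
    refine (Subgroup.map_mono h.hgen).trans ?_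
    rw [Subgroup.map_sup]
    exact sup_le_sup_right (Subgroup.map_inf_le _ _ _) _

end IsoData

end

end Cfsg.Agent.Lib.Helper28
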