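import Cfsg.Agent.Lib.Helper28.Isolated2

set_option autoImplicit false
set_option linter.unusedSectionVars false
set_option linter.unusedVariables false

/-! # Isolated `p`-minimal subgroups: back from `G / O_p(G)` -/

namespace Cfsg.Agent.Lib.Helper28

open Cfsg.Agent.Lib.Helper53 (IsSyl)
open Cfsg (pCoreOf pResidualOf pCore)
open scoped commutatorElement Pointwise

universe u

section
variable {G : Type u} [Group G] [Finite G] {p : ℕ} [Fact p.Prime]

theorem IsoData.eq_of_map_eq {S : Sylow p G} {P L : Subgroup G} (h : IsoData p S P L)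
    [hOn : (pCore p G).Normal]
    (he : (pResidualOf p P).map (QuotientGroup.mk' (pCore p G)) =
      (Subgroup.normalClosure ((pResidualOf p P : Subgroup G) : Set G)).map
        (QuotientGroup.mk' (pCore p G))) :
    pResidualOf p P = Subgroup.normalClosure ((pResidualOf p P : Subgroup G) : Set G) := by
  set U := pResidualOf p P with hU
  set Y := Subgroup.normalClosure ((U : Subgroup G) : Set G) with hY
  have hYn : Y.Normal := Subgroup.normalClosure_normal
  refine le_antisymm Subgroup.le_normalClosure ?_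
  have h1 : Y ≤ pCore p G ⊔ U := by
    have := Subgroup.map_le_map_iff.mp he.symm.le
    rwa [QuotientGroup.ker_mk', sup_comm] at this
  have hOU : pCore p G ≤ Subgroup.normalizer ((U : Subgroup G) : Set G) :=
    ((Cfsg.Agent.Lib.Helper53.pCore_le_sylow S).trans h.hSP).trans h.hPnU
  have h2 : (Cfsg.pResidual p ↥Y).map Y.subtype ≤ U :=
    Cfsg.Agent.Lib.Helper53.pRes_le_of_le_sup hOU (Cfsg.Agent.Lib.Helper53.pCore_isPGroup p G) h1
  have h3 : U ≤ (Cfsg.pResidual p ↥Y).map Y.subtype := by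
    have h4 : U = Subgroup.closure {g : G | g ∈ P ∧ (orderOf g).Coprime p} :=
      Cfsg.Agent.Lib.Helper53.pRes_eq_closure p P
    conv_lhs => rw [h4]
    rw [Subgroup.closure_le]
    rintro g ⟨hgP, hg⟩
    exact Cfsg.Agent.Lib.Helper53.mem_pRes
      (Subgroup.le_normalClosure (Cfsg.Agent.Lib.Helper53.mem_pRes hgP hg)) hg
  have h4 : ((Cfsg.pResidual p ↥Y).map Y.subtype).Normal := by
    rw [← Subgroup.normalizer_eq_top_iff, eq_top_iff]
    exact (Subgroup.normalizer_eq_top_iff.mpr hYn).ge.trans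
      (Cfsg.Agent.Lib.Helper53.normalizer_le_normalizer_pRes p Y)
  exact (Subgroup.normalClosure_le_normal h3).trans h2

theorem ker_subgroupMap_eq_pCore (Y : Subgroup G) (hY : Y.Normal) [hOn : (pCore p G).Normal] :
    ((QuotientGroup.mk' (pCore p G)).subgroupMap Y).ker = pCore p ↥Y := by
  have key := pCore_inf_subnormal p hY.isSubnormal
  ext ⟨y, hy⟩
  rw [MonoidHom.mem_ker]
  constructor
  · intro h1
    have h2 : (QuotientGroup.mk' (pCore p G)) y = 1 := congrArg Subtype.val h1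
    have h3 : y ∈ pCore p G := by
      rwa [← MonoidHom.mem_ker, QuotientGroup.ker_mk'] at h2
    have h4 : y ∈ (pCore p ↥Y).map Y.subtype := key ▸ ⟨h3, hy⟩
    obtain ⟨z, hz, hzy⟩ := h4
    have : z = ⟨y, hy⟩ := Subtype.ext hzy
    rwa [this] at hz
  · intro h1
    have h4 : y ∈ pCore p G ⊓ Y := key ▸ ⟨⟨y, hy⟩, h1, rfl⟩
    apply Subtype.ext
    have h5 : (QuotientGroup.mk' (pCore p G)) y = 1 := by
      rw [← MonoidHom.mem_ker, QuotientGroup.ker_mk']; exact h4.1
    exact h5

/-- `Y / O_p(Y) ≅ Y O_p(G) / O_p(G)` for a normal subgroup `Y` -/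
noncomputable def hatEquiv (Y : Subgroup G) (hY : Y.Normal) [hOn : (pCore p G).Normal]
    [hYn : (pCore p ↥Y).Normal] :
    ↥Y ⧸ pCore p ↥Y ≃* ↥(Y.map (QuotientGroup.mk' (pCore p G))) :=
  (QuotientGroup.quotientMulEquivOfEq (ker_subgroupMap_eq_pCore Y hY).symm).trans
    (QuotientGroup.quotientKerEquivOfSurjective _ (MonoidHom.subgroupMap_surjective _ _))

theorem hatEquiv_mk (Y : Subgroup G) (hY : Y.Normal) [hOn : (pCore p G).Normal]
    [hYn : (pCore p ↥Y).Normal] (y : ↥Y) :
    ((hatEquiv Y hY (QuotientGroup.mk' (pCore p ↥Y) y) : ↥(Y.map (QuotientGroup.mk' (pCore p G)))) :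
      G ⧸ pCore p G) = QuotientGroup.mk' (pCore p G) (y : G) := rfl

omit [Finite G] in
theorem nilpotencyClass_le_two_of {Y : Subgroup G} (h : ⁅⁅Y, Y⁆, Y⁆ = ⊥) :
    ∃ _ : Group.IsNilpotent ↥Y, Group.nilpotencyClass ↥Y ≤ 2 := by
  have hnil : Group.IsNilpotent ↥Y := (Subgroup.isNilpotent_iff_lowerCentralSeries Y).mpr ⟨2, h⟩
  refine ⟨hnil, ?_⟩
  rw [← Subgroup.lowerCentralSeries_eq_bot_iff_nilpotencyClass_le]
  have h1 := Subgroup.top_subtype_lowerCentralSeries Y 2
  have h2 : Y.lowerCentralSeries 2 = ⊥ := h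
  rw [h2, Subgroup.map_eq_bot_iff_of_injective _ Y.subtype_injective] at h1
  exact h1

end

end Cfsg.Agent.Lib.Helper28
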