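import Cfsg.Agent.Lib.Helper28.Isolated3

set_option autoImplicit false
set_option linter.unusedSectionVars false
set_option linter.unusedVariables false

/-! # Isolated `p`-minimal subgroups: components of `Y / O_p(Y)` -/

namespace Cfsg.Agent.Lib.Helper28

open Cfsg.Agent.Lib.Helper53 (IsSyl)
open Cfsg (pCoreOf pResidualOf pCore)
open scoped commutatorElement Pointwise

universe u

section
variable {G : Type u} [Group G] [Finite G] {p : ℕ} [Fact p.Prime]

/-- the subgroup of `G / O_p(G)` corresponding to a subgroup of `Y / O_p(Y)` -/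
noncomputable def hatK (Y : Subgroup G) (hY : Y.Normal) [hOn : (pCore p G).Normal]
    [hYn : (pCore p ↥Y).Normal] (K : Subgroup (↥Y ⧸ pCore p ↥Y)) : Subgroup (G ⧸ pCore p G) :=
  (K.map (hatEquiv Y hY).toMonoidHom).map (Y.map (QuotientGroup.mk' (pCore p G))).subtype

theorem hatK_le (Y : Subgroup G) (hY : Y.Normal) [hOn : (pCore p G).Normal]
    [hYn : (pCore p ↥Y).Normal] (K : Subgroup (↥Y ⧸ pCore p ↥Y)) :
    hatK Y hY K ≤ Y.map (QuotientGroup.mk' (pCore p G)) := Subgroup.map_subtype_le _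

theorem isComponent_hatK (Y : Subgroup G) (hY : Y.Normal) [hOn : (pCore p G).Normal]
    [hYn : (pCore p ↥Y).Normal] {K : Subgroup (↥Y ⧸ pCore p ↥Y)} (hK : Cfsg.IsComponent K) :
    Cfsg.IsComponent (hatK Y hY K) := by
  have h1 : (Y.map (QuotientGroup.mk' (pCore p G))).Normal :=
    hY.map _ (QuotientGroup.mk'_surjective _)
  exact isComponent_map_subtype h1.isSubnormal (isComponent_map_equiv (hatEquiv Y hY) hK)

theorem lift_eq (Y : Subgroup G) (hY : Y.Normal) [hOn : (pCore p G).Normal]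
    [hYn : (pCore p ↥Y).Normal] (K : Subgroup (↥Y ⧸ pCore p ↥Y)) :
    (K.comap (QuotientGroup.mk' (pCore p ↥Y))).map Y.subtype =
      (hatK Y hY K).comap (QuotientGroup.mk' (pCore p G)) ⊓ Y := by
  ext x
  constructor
  · rintro ⟨y, hy, rfl⟩
    refine ⟨?_, y.2⟩
    exact ⟨hatEquiv Y hY (QuotientGroup.mk' (pCore p ↥Y) y), ⟨_, hy, rfl⟩, hatEquiv_mk Y hY y⟩
  · rintro ⟨h1, hxY⟩
    obtain ⟨z, ⟨k, hk, rfl⟩, hz⟩ := h1
    refine ⟨⟨x, hxY⟩, ?_, rfl⟩
    have h2 : (hatEquiv Y hY) k = hatEquiv Y hY (QuotientGroup.mk' (pCore p ↥Y) ⟨x, hxY⟩) := by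
      apply Subtype.ext
      rw [hatEquiv_mk]
      exact hz
    have h3 := (hatEquiv Y hY).injective h2
    show QuotientGroup.mk' (pCore p ↥Y) ⟨x, hxY⟩ ∈ K
    rw [← h3]
    exact hk

omit [Finite G] [Fact p.Prime] in
theorem comap_conj_inf (Y : Subgroup G) (hY : Y.Normal) {N : Subgroup G} [hOn : N.Normal]
    (A : Subgroup (G ⧸ N)) (s : G) :
    (A.map (MulAut.conj (QuotientGroup.mk' N s)).toMonoidHom).comap (QuotientGroup.mk' N) ⊓ Y =
      (A.comap (QuotientGroup.mk' N) ⊓ Y).map (MulAut.conj s).toMonoidHom := by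
  ext x
  rw [mem_map_conj, Subgroup.mem_inf, Subgroup.mem_inf, Subgroup.mem_comap, Subgroup.mem_comap,
    mem_map_conj]
  have h1 : (QuotientGroup.mk' N s)⁻¹ * QuotientGroup.mk' N x * QuotientGroup.mk' N s =
      QuotientGroup.mk' N (s⁻¹ * x * s) := by simp
  rw [h1]
  have h2 : x ∈ Y ↔ s⁻¹ * x * s ∈ Y := by
    constructor
    · intro h
      have := hY.conj_mem x h s⁻¹
      simpa using this
    · intro h
      have := hY.conj_mem _ h s
      simpa [mul_assoc] using this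
  rw [h2]

theorem layer_eq_top_of (Y : Subgroup G) (hY : Y.Normal) [hOn : (pCore p G).Normal]
    [hYn : (pCore p ↥Y).Normal]
    (h : Y.map (QuotientGroup.mk' (pCore p G)) = sSup {K : Subgroup (G ⧸ pCore p G) |
      Cfsg.IsComponent K ∧ K ≤ Y.map (QuotientGroup.mk' (pCore p G))}) :
    Cfsg.layer (↥Y ⧸ pCore p ↥Y) = ⊤ := by
  set Yh := Y.map (QuotientGroup.mk' (pCore p G)) with hYh
  have h1 : Yh ≤ (Cfsg.layer ↥Yh).map Yh.subtype := by
    conv_lhs => rw [h]
    refine sSup_le fun K hK => ?_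
    rw [← Subgroup.map_subgroupOf_eq_of_le hK.2]
    exact Subgroup.map_mono (le_layer (isComponent_subgroupOf hK.2 hK.1))
  have h2 : Cfsg.layer ↥Yh = ⊤ := by
    rw [eq_top_iff]
    intro x _
    obtain ⟨z, hz, hzx⟩ := h1 x.2
    have : z = x := Subtype.ext hzx
    rwa [this] at hz
  have h3 := layer_map_equiv (hatEquiv (p := p) Y hY)
  rw [h2] at h3
  apply Subgroup.map_injective (f := (hatEquiv (p := p) Y hY).toMonoidHom)
    (hatEquiv (p := p) Y hY).injective
  rw [h3]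
  exact (Subgroup.map_top_of_surjective _ (hatEquiv (p := p) Y hY).surjective).symm

end

end Cfsg.Agent.Lib.Helper28
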